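import Cfsg.Agent.H27.Mdl

/-! Small subgroups all of whose nontrivial elements are conjugate, and counting fixed points. -/

set_option autoImplicit false

namespace Cfsg.Agent.H27.Tl

open Cfsg Subgroup MulAction
open H16 (allB allB_spec)
open H17 (nth)

/-- the letters below `m` are closed under the first `k`, letter `k` is trivial, the others are conjugate to `y` -/
noncomputable def Mc.clsB (M : Mc) (L : List ℕ) (k m y : ℕ) : Bool :=
  Nat.blt k m && M.weqB (M.cw L [k]) (M.cw L []) && allB m fun i =>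
    (allB k fun a => (List.range m).any fun j => M.weqB (M.cw L [a, i]) (M.cw L [j])) &&
      (Nat.beq i k || M.weqB (M.cw L [Nat.add m i, i]) (M.cw L [y, Nat.add m i]))

variable {G : Type*} [Group G] [Finite G]

theorem IsAct.cls {Ω : Type*} [MulAction G Ω] {M : Mc} {R : G → ℕ → Prop} {P : Ω → ℕ → Prop} (A : IsAct M R P)
    {g : ℕ → G} {L : List ℕ} (hg : ∀ i, R (g i) (nth M.one L i)) {k m y : ℕ} (h : M.clsB L k m y = true) :
    Nat.card (closure (g '' Set.Ico 0 k)) ≤ m ∧ ∀ x ∈ closure (g '' Set.Ico 0 k), x = 1 ∨ IsConj x (g y) := by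
  simp only [Mc.clsB, Bool.and_eq_true, Nat.blt_eq] at h
  obtain ⟨⟨h1, h2⟩, h3⟩ := h
  have h2 : g k = 1 := by simpa using A.weqB hg h2
  have h4 := fun i hi => Bool.and_eq_true_iff.1 (allB_spec h3 i hi)
  have h5 : ∀ x ∈ closure (g '' Set.Ico 0 k), ∀ i < m, ∃ j < m, x * g i = g j := fun x hx => by
    rw [← mem_toSubmonoid, closure_toSubmonoid_of_finite] at hx
    induction hx using Submonoid.closure_induction with
    | mem x hx =>
      obtain ⟨a, ha, rfl⟩ := hx
      intro i hi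
      obtain ⟨j, b, c⟩ := List.any_eq_true.1 (allB_spec (h4 i hi).1 a ha.2)
      exact ⟨j, List.mem_range.1 b, by simpa using A.weqB hg c⟩
    | one => exact fun i hi => ⟨i, hi, one_mul _⟩
    | mul a b _ _ ha hb =>
      intro i hi
      obtain ⟨j, hj, e⟩ := hb i hi
      simpa only [mul_assoc, e] using ha j hj
  have h6 : ∀ x ∈ closure (g '' Set.Ico 0 k), ∃ j < m, g j = x := fun x hx => by
    simpa [h2, eq_comm] using h5 x hx k h1
  refine ⟨?_, fun x hx => ?_⟩
  · rw [← SetLike.coe_sort_coe, Nat.card_coe_set_eq]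
    exact (Set.ncard_le_ncard (t := g '' Set.Iio m) h6 ((Set.finite_Iio m).image g)).trans
      ((Set.ncard_image_le (Set.finite_Iio m)).trans (by simp))
  · obtain ⟨j, hj, rfl⟩ := h6 x hx
    refine (Bool.or_eq_true_iff.1 (h4 j hj).2).imp (fun e => by rw [Nat.eq_of_beq_eq_true e]; exact h2) fun e => ?_
    exact isConj_iff.2 ⟨g (m + j), mul_inv_eq_iff_eq_mul.2 (by simpa using A.weqB hg e)⟩

theorem IsAct.evs_g {Ω : Type*} [MulAction G Ω] {M : Mc} {R : G → ℕ → Prop} {P : Ω → ℕ → Prop} (A : IsAct M R P)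
    {L : List ℕ} (hL : InR R ⊤ L) {ws : List (List ℕ)} {k : List ℕ → Bool} (h : M.evs L ws k = true) :
    ∃ (g : ℕ → G) (L' : List ℕ), (∀ i, R (g i) (nth M.one L' i)) ∧ k L' = true := by
  obtain ⟨g, -, hg⟩ := A.exists_g hL
  obtain ⟨g', -, hg'⟩ := A.exists_g (K := ⊤) (L := ws.map fun w => M.prod (M.cw L w)) fun x hx => by
    obtain ⟨w, -, rfl⟩ := List.mem_map.1 hx
    exact ⟨_, trivial, A.prod hg w⟩
  exact ⟨g', _, hg', IsAct.evs_eq L ws k ▸ h⟩

variable {Ω : Type*} [Finite Ω] [MulAction G Ω]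

omit [Finite G] [Finite Ω] in
theorem ncard_conj {x y : G} (h : IsConj x y) : (fixedBy Ω x).ncard = (fixedBy Ω y).ncard := by
  obtain ⟨c, rfl⟩ := isConj_iff.1 h
  rw [← smul_fixedBy, Set.ncard_smul_set]

theorem sum_of_conj {K : Subgroup G} [Fintype K] {y : G} (h : ∀ x ∈ K, x = 1 ∨ IsConj x y) :
    ∑ x : K, Nat.card (fixedBy Ω x) = Nat.card Ω + (Nat.card K - 1) * (fixedBy Ω y).ncard := by
  classical
  rw [← Finset.add_sum_erase _ _ (Finset.mem_univ 1), Finset.sum_congr rfl (g := fun _ => (fixedBy Ω y).ncard)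
    fun x hx => by
      rw [Nat.card_coe_set_eq]
      exact ncard_conj ((h x x.2).resolve_left fun e => Finset.ne_of_mem_erase hx (Subtype.ext e))]
  simp [fixedBy_one_eq_univ]

theorem card_dvd_of_conj {K : Subgroup G} {y : G} (h : ∀ x ∈ K, x = 1 ∨ IsConj x y) :
    Nat.card K ∣ Nat.card Ω + (Nat.card K - 1) * (fixedBy Ω y).ncard := by
  classical
  have := Fintype.ofFinite K
  have := Fintype.ofFinite Ω
  have := Fintype.ofFinite (Quotient (orbitRel K Ω))
  have h1 := sum_card_fixedBy_eq_card_orbits_mul_card_group K Ω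
  simp only [← Nat.card_eq_fintype_card] at h1
  rw [← sum_of_conj h, h1]
  exact dvd_mul_left _ _

theorem le_of_conj {K : Subgroup G} {y : G} (h : ∀ x ∈ K, x = 1 ∨ IsConj x y) {s : ℕ}
    (hs : ∀ ω : Ω, Nat.card (stabilizer K ω) ≤ s) :
    Nat.card Ω + (Nat.card K - 1) * (fixedBy Ω y).ncard ≤ Nat.card Ω * s := by
  classical
  have := Fintype.ofFinite K
  have := Fintype.ofFinite Ω
  have : ∑ x : K, Nat.card (fixedBy Ω x) = ∑ ω : Ω, Nat.card (stabilizer K ω) := by
    simp only [Nat.card_eq_fintype_card, Fintype.card_subtype, Finset.card_filter, mem_fixedBy, mem_stabilizer_iff]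
    exact Finset.sum_comm
  rw [← sum_of_conj h, this]
  simpa using Finset.sum_le_card_nsmul Finset.univ _ s fun ω _ => hs ω

omit [Finite G] in
theorem fix_modEq {z : G} {p : ℕ} (hp : p.Prime) (h : z ^ p = 1) : Nat.card Ω ≡ (fixedBy Ω z).ncard [MOD p] := by
  classical
  have := Fintype.ofFinite Ω
  have := Fact.mk hp
  have := Equiv.Perm.card_fixedPoints_modEq (f := toEndHom (α := Ω) z) (p := p) (n := 1) (by
    rw [pow_one, ← map_pow, h, map_one])
  rwa [← Nat.card_eq_fintype_card, ← Nat.card_eq_fintype_card, Nat.card_coe_set_eq] at this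

omit [Finite G] in
theorem exists_fix {z t : G} {p k : ℕ} (hp : p.Prime) (h : t ^ p = 1) (e : z * t = t * z ^ k)
    (hz : ¬ p ∣ (fixedBy Ω z).ncard) : (fixedBy Ω t).ncard ≠ 0 := by
  classical
  have := Fintype.ofFinite (fixedBy Ω z)
  have := Fact.mk hp
  let f : Function.End (fixedBy Ω z) := fun ω => ⟨t • ω, by
    rw [mem_fixedBy, ← mul_smul, e, mul_smul, 
      show z ^ k • ω.1 = ω from (stabilizer G ω.1).pow_mem ω.2 k]⟩
  have hf : ∀ (n : ℕ) ω, ((f ^ n) ω).1 = t ^ n • ω.1 := fun n => by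
    induction n with
    | zero => intro ω; rw [pow_zero, pow_zero, one_smul]; rfl
    | succ n ih => intro ω; rw [pow_succ', pow_succ', mul_smul, ← ih]; rfl
  have := Equiv.Perm.card_fixedPoints_modEq (f := f) (p := p) (n := 1) (funext fun ω => Subtype.ext (by
    rw [hf, pow_one, h, one_smul]; rfl))
  rw [← Nat.card_eq_fintype_card, Nat.card_coe_set_eq] at this
  intro h0
  rw [Set.ncard_eq_zero] at h0
  rw [Fintype.card_eq_zero_iff.2 ⟨fun ω => h0.le (show ω.1.1 ∈ fixedBy Ω t from congrArg Subtype.val ω.2)⟩] at this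
  exact hz (Nat.modEq_zero_iff_dvd.1 this)

omit [Finite G] in
theorem ncard_fixedBy_lt [FaithfulSMul G Ω] {y : G} (h : y ≠ 1) : (fixedBy Ω y).ncard < Nat.card Ω := by
  rw [← Set.ncard_univ]
  exact Set.ncard_lt_ncard (Set.ssubset_univ_iff.2 fun e => h (fixedBy_eq_univ_iff_eq_one.1 e))

end Cfsg.Agent.H27.Tl
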