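import Cfsg.Agent.H27.LyE

/-! Relations between the matrices. -/

set_option autoImplicit false
set_option maxRecDepth 100000
set_option Elab.async false

namespace Cfsg.Agent.H27.Ly111

open H17

theorem rel0 : allL [([0, 1], []), ([2, 3], []), ([4, 5], []), ([6, 7], []), ([8, 9], []), ([10, 11], []), ([12, 13], [])] eqO = true := by decide +kernel
theorem rel3 : allL [([42, 43], []), ([44, 45], []), ([46, 47], []), ([48, 49], []), ([50, 51], []), ([52, 53], []), ([54, 55], [])] eqO = true := by decide +kernel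
theorem rel6 : allL [([2, 2, 2], [3, 3]), ([0, 2, 0, 2], [3, 1, 3, 1]), ([1, 1, 3], [3, 1, 1])] eqO = true := by decide +kernel
theorem rel9 : allL [([21, 29], [29, 21]), ([23, 29], [29, 23]), ([25, 29], [29, 25]), ([27, 29], [29, 27])] eqO = true := by decide +kernel
theorem rel12 : allL [([1, 26, 0, 27, 21], [20, 23, 25, 26]), ([1, 28, 0], [28, 28]), ([3, 22, 2, 26], [22, 24, 27, 21])] eqO = true := by decide +kernel
theorem rel15 : allL [([11, 20, 10, 20], [2, 24, 2]), ([11, 24, 10, 0, 26], [2, 2, 0, 22, 21]), ([11, 26, 10, 27], [2, 2, 25])] eqO = true := by decide +kernel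
theorem rel18 : allL [([10, 22, 10, 23, 10, 22], [1, 1, 1, 25, 1, 26])] eqO = true := by decide +kernel
theorem rel21 : allL [([6, 28, 6, 29], [0, 0, 29, 7]), ([12], [0]), ([14, 2], [2, 0]), ([16, 2, 2], [2, 2, 0])] eqO = true := by decide +kernel
theorem rel24 : allL [([38, 5, 3, 5, 7, 2, 2, 5, 7, 2, 5, 3], [0, 2, 1, 2, 2, 1, 2, 2, 5, 0, 4])] eqO = true := by decide +kernel
theorem rel27 : allL [([50, 1, 3, 1], [1, 3, 1, 4]), ([52, 3, 1, 2], [3, 1, 2, 4])] eqO = true := by decide +kernel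
theorem rel30 : allL [([62, 2, 1, 3, 1, 2, 1, 4, 0, 2], [1, 6, 3, 5, 1, 2, 5, 7, 2, 5])] eqO = true := by decide +kernel
theorem rel33 : allL [([68, 2, 0, 3, 1, 3, 3, 1, 3, 4, 2], [5, 3, 5, 7, 2, 2, 5, 7, 3, 5, 3])] eqO = true := by decide +kernel
theorem rel36 : allL [([74, 0, 3, 0, 2, 2, 0, 5, 0, 2], [7, 0, 4, 2, 4, 1, 5, 7, 0])] eqO = true := by decide +kernel
theorem rel39 : allL [([9, 14], [58, 9]), ([9, 16], [60, 9]), ([8, 8], [30]), ([18, 8, 18, 8], [31, 9, 19])] eqO = true := by decide +kernel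
theorem shape : Ar.shapeB 111 Ms = true := by decide +kernel

end Cfsg.Agent.H27.Ly111
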