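import Cfsg.Agent.H27.LyE

/-! Relations between the matrices. -/

set_option autoImplicit false
set_option maxRecDepth 100000
set_option Elab.async false

namespace Cfsg.Agent.H27.Ly111

open H17

theorem rel1 : allL [([14, 15], []), ([16, 17], []), ([18, 19], []), ([20, 21], []), ([22, 23], []), ([24, 25], []), ([26, 27], [])] eqO = true := by decide +kernel
theorem rel4 : allL [([56, 57], []), ([58, 59], []), ([60, 61], []), ([62, 63], []), ([64, 65], []), ([66, 67], []), ([68, 69], [])] eqO = true := by decide +kernel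
theorem rel7 : allL [([1, 3, 0, 2, 1, 3], [3, 1, 2, 0, 3, 1]), ([20], [4]), ([22, 1], [1, 4]), ([24, 3], [3, 4])] eqO = true := by decide +kernel
theorem rel10 : allL [([21, 25, 20], [29, 29, 25]), ([21, 27, 20], [28, 28, 27]), ([23, 25, 22], [29, 25]), ([23, 27], [27, 23])] eqO = true := by decide +kernel
theorem rel13 : allL [([3, 24, 2, 24], [20, 20, 26, 25]), ([3, 28], [28, 3])] eqO = true := by decide +kernel
theorem rel16 : allL [([11, 28, 10, 26], [20, 25, 20]), ([10, 0, 0, 10, 26, 29, 21], [0, 2, 2, 0, 3, 0])] eqO = true := by decide +kernel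
theorem rel19 : allL [([6, 11, 3, 22, 1, 11, 1, 11, 1], [0, 2, 2, 1, 3, 21, 27, 29]), ([6, 6, 1], [0, 0, 0])] eqO = true := by decide +kernel
theorem rel22 : allL [([18, 3, 3], [3, 3, 0]), ([30, 1], [0]), ([32], [6]), ([34], [7])] eqO = true := by decide +kernel
theorem rel25 : allL [([40, 6, 4, 3, 0], [5, 7, 1, 5]), ([42, 7], [2]), ([44, 2], [7])] eqO = true := by decide +kernel
theorem rel28 : allL [([54, 4, 2, 2, 5, 1], [2, 2, 1, 3, 4, 2]), ([56, 0], [1, 1]), ([58, 0, 0], [2, 1, 3])] eqO = true := by decide +kernel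
theorem rel31 : allL [([64, 6, 2, 5, 0, 5, 1, 5, 7, 4], [0, 3, 3, 1, 4, 2, 5, 2, 1, 5])] eqO = true := by decide +kernel
theorem rel34 : allL [([70, 2, 2, 0, 2, 4, 2, 2, 5, 1, 4], [1, 5, 7, 0, 5, 3, 0, 5, 7, 1])] eqO = true := by decide +kernel
theorem rel37 : allL [([76, 3, 0, 2, 0, 2, 5, 1, 5], [5, 1, 4, 2, 5, 7, 4, 1]), ([9, 20], [46, 9])] eqO = true := by decide +kernel
theorem rel40 : allL [([40, 8, 62], [9, 71, 9]), ([9, 34, 9, 72], [39, 9, 33, 9]), ([8, 66, 8, 64], [75, 8, 69, 8])] eqO = true := by decide +kernel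
theorem bnd : MN.bndB 4 Ms = true := by decide +kernel

end Cfsg.Agent.H27.Ly111
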