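import Cfsg.Agent.H27.LyE

/-! Relations between the matrices. -/

set_option autoImplicit false
set_option maxRecDepth 100000
set_option Elab.async false

namespace Cfsg.Agent.H27.Ly111

open H17

theorem rel2 : allL [([28, 29], []), ([30, 31], []), ([32, 33], []), ([34, 35], []), ([36, 37], []), ([38, 39], []), ([40, 41], [])] eqO = true := by decide +kernel
theorem rel5 : allL [([70, 71], []), ([72, 73], []), ([74, 75], []), ([76, 77], []), ([0, 0, 0, 0], [1, 1, 1, 1])] eqO = true := by decide +kernel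
theorem rel8 : allL [([26, 2], [2, 4]), ([28, 23, 21], [21, 23]), ([20, 20, 20], [21, 21]), ([28, 28, 28], [29, 29])] eqO = true := by decide +kernel
theorem rel11 : allL [([25, 27, 24], [29, 27]), ([1, 22, 0], [21, 21]), ([1, 24, 0, 27], [25, 25, 20])] eqO = true := by decide +kernel
theorem rel14 : allL [([10, 7, 21, 7, 2, 1, 3, 21, 7], [3, 3, 1, 21, 0, 20, 1, 20, 0]), ([10], [11])] eqO = true := by decide +kernel
theorem rel17 : allL [([11, 2, 10, 26], [20, 25, 27]), ([10, 0, 2, 2, 0, 3, 0], [0, 0, 20, 28, 27, 11])] eqO = true := by decide +kernel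
theorem rel20 : allL [([3, 7], [7, 3]), ([7, 0, 6], [0, 0, 0]), ([6, 28, 6, 28, 6], [29, 7, 29, 7, 29])] eqO = true := by decide +kernel
theorem rel23 : allL [([36, 3, 5, 0, 3, 3, 4, 7, 4, 0], [2, 2, 1, 3, 1, 2, 2, 5, 0, 4])] eqO = true := by decide +kernel
theorem rel26 : allL [([46, 1, 3, 4, 1, 2], [1, 3, 1, 2, 5]), ([48, 3, 5, 3, 0], [3, 3, 0, 4])] eqO = true := by decide +kernel
theorem rel29 : allL [([60, 0, 2, 2], [0, 2, 2, 0])] eqO = true := by decide +kernel
theorem rel32 : allL [([66, 5, 3, 5, 7, 2, 2, 5, 7, 3, 5], [2, 0, 3, 1, 3, 3, 1, 3, 4, 2, 2])] eqO = true := by decide +kernel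
theorem rel35 : allL [([72, 2, 1, 2, 2, 1, 2, 4, 2, 0], [1, 5, 7, 2, 1, 3, 5, 7, 2])] eqO = true := by decide +kernel
theorem rel38 : allL [([9, 22], [48, 9]), ([9, 24], [50, 9]), ([9, 26], [52, 9]), ([9, 28], [54, 9]), ([9, 12], [56, 9])] eqO = true := by decide +kernel
theorem rel41 : allL [([8, 42, 8, 36], [77, 8, 45, 8])] eqO = true := by decide +kernel

end Cfsg.Agent.H27.Ly111
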