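import Cfsg.Prelude.Def_Spor_Ly
import Cfsg.Agent.H27.LyC0
import Cfsg.Agent.H27.LyC1
import Cfsg.Agent.H27.LyC2
import Cfsg.Agent.H17.Grp

/-! A representation of degree 111 of the presented Lyons group. -/

set_option autoImplicit false
set_option maxRecDepth 100000
set_option Elab.async false

namespace Cfsg.Agent.H27.Ly111

open H17

noncomputable def PP : List (List ℕ × List ℕ) := ([([0, 1], []), ([2, 3], []), ([4, 5], []), ([6, 7], []), ([8, 9], []), ([10, 11], []), ([12, 13], [])] ++ ([([14, 15], []), ([16, 17], []), ([18, 19], []), ([20, 21], []), ([22, 23], []), ([24, 25], []), ([26, 27], [])] ++ ([([28, 29], []), ([30, 31], []), ([32, 33], []), ([34, 35], []), ([36, 37], []), ([38, 39], []), ([40, 41], [])] ++ ([([42, 43], []), ([44, 45], []), ([46, 47], []), ([48, 49], []), ([50, 51], []), ([52, 53], []), ([54, 55], [])] ++ ([([56, 57], []), ([58, 59], []), ([60, 61], []), ([62, 63], []), ([64, 65], []), ([66, 67], []), ([68, 69],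 [])] ++ ([([70, 71], []), ([72, 73], []), ([74, 75], []), ([76, 77], []), ([0, 0, 0, 0], [1, 1, 1, 1])] ++ ([([2, 2, 2], [3, 3]), ([0, 2, 0, 2], [3, 1, 3, 1]), ([1, 1, 3], [3, 1, 1])] ++ ([([1, 3, 0, 2, 1, 3], [3, 1, 2, 0, 3, 1]), ([20], [4]), ([22, 1], [1, 4]), ([24, 3], [3, 4])] ++ ([([26, 2], [2, 4]), ([28, 23, 21], [21, 23]), ([20, 20, 20], [21, 21]), ([28, 28, 28], [29, 29])] ++ ([([21, 29], [29, 21]), ([23, 29], [29, 23]), ([25, 29], [29, 25]), ([27, 29], [29, 27])] ++ ([([21, 25, 20], [29, 29, 25]), ([21, 27, 20], [28, 28, 27]), ([23, 25, 22], [29, 25]), ([23, 27], [27, 23])] ++ ([([25, 27, 24], [29, 27]), ([1, 22, 0], [21, 21]), ([1, 24, 0, 27], [25, 25, 20])] ++ ([([1, 26, 0, 27, 21], [20, 23, 25, 26]), ([1, 28, 0], [28, 28]), ([3, 22, 2, 26], [22, 24, 27, 21])] ++ ([([3, 24, 2, 24], [20, 20, 26, 25]), ([3, 28], [28, 3])] ++ ([([10, 7, 21, 7, 2, 1, 3, 21, 7], [3, 3, 1, 21, 0, 20, 1, 20, 0]), ([10], [11])] ++ ([([11, 20, 10, 20], [2,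 24, 2]), ([11, 24, 10, 0, 26], [2, 2, 0, 22, 21]), ([11, 26, 10, 27], [2, 2, 25])] ++ ([([11, 28, 10, 26], [20, 25, 20]), ([10, 0, 0, 10, 26, 29, 21], [0, 2, 2, 0, 3, 0])] ++ ([([11, 2, 10, 26], [20, 25, 27]), ([10, 0, 2, 2, 0, 3, 0], [0, 0, 20, 28, 27, 11])] ++ ([([10, 22, 10, 23, 10, 22], [1, 1, 1, 25, 1, 26])] ++ ([([6, 11, 3, 22, 1, 11, 1, 11, 1], [0, 2, 2, 1, 3, 21, 27, 29]), ([6, 6, 1], [0, 0, 0])] ++ ([([3, 7], [7, 3]), ([7, 0, 6], [0, 0, 0]), ([6, 28, 6, 28, 6], [29, 7, 29, 7, 29])] ++ ([([6, 28, 6, 29], [0, 0, 29, 7]), ([12], [0]), ([14, 2], [2, 0]), ([16, 2, 2], [2, 2, 0])] ++ ([([18, 3, 3], [3, 3, 0]), ([30, 1], [0]), ([32], [6]), ([34], [7])] ++ ([([36, 3, 5, 0, 3, 3, 4, 7, 4, 0], [2, 2, 1, 3, 1, 2, 2, 5, 0, 4])] ++ ([([38, 5, 3, 5, 7, 2, 2, 5, 7, 2, 5, 3], [0, 2, 1, 2, 2, 1, 2, 2, 5, 0, 4])] ++ ([([40, 6, 4, 3, 0], [5, 7, 1, 5]), ([42, 7], [2]), ([44, 2], [7])] ++ ([([46, 1, 3, 4, 1, 2], [1, 3, 1, 2, 5]), ([48, 3, 5, 3, 0], [3,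 3, 0, 4])] ++ ([([50, 1, 3, 1], [1, 3, 1, 4]), ([52, 3, 1, 2], [3, 1, 2, 4])] ++ ([([54, 4, 2, 2, 5, 1], [2, 2, 1, 3, 4, 2]), ([56, 0], [1, 1]), ([58, 0, 0], [2, 1, 3])] ++ ([([60, 0, 2, 2], [0, 2, 2, 0])] ++ ([([62, 2, 1, 3, 1, 2, 1, 4, 0, 2], [1, 6, 3, 5, 1, 2, 5, 7, 2, 5])] ++ ([([64, 6, 2, 5, 0, 5, 1, 5, 7, 4], [0, 3, 3, 1, 4, 2, 5, 2, 1, 5])] ++ ([([66, 5, 3, 5, 7, 2, 2, 5, 7, 3, 5], [2, 0, 3, 1, 3, 3, 1, 3, 4, 2, 2])] ++ ([([68, 2, 0, 3, 1, 3, 3, 1, 3, 4, 2], [5, 3, 5, 7, 2, 2, 5, 7, 3, 5, 3])] ++ ([([70, 2, 2, 0, 2, 4, 2, 2, 5, 1, 4], [1, 5, 7, 0, 5, 3, 0, 5, 7, 1])] ++ ([([72, 2, 1, 2, 2, 1, 2, 4, 2, 0], [1, 5, 7, 2, 1, 3, 5, 7, 2])] ++ ([([74, 0, 3, 0, 2, 2, 0, 5, 0, 2], [7, 0, 4, 2, 4, 1, 5, 7, 0])] ++ ([([76, 3, 0, 2, 0, 2, 5, 1, 5], [5, 1, 4, 2, 5, 7, 4, 1]), ([9, 20], [46, 9])] ++ ([([9, 22], [48, 9]), ([9, 24], [50, 9]), ([9, 26], [52, 9]), ([9, 28], [54, 9]), ([9, 12], [56, 9])] ++ ([([9, 14], [58, 9]), ([9, 16], [60, 9]), ([8,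 8], [30]), ([18, 8, 18, 8], [31, 9, 19])] ++ ([([40, 8, 62], [9, 71, 9]), ([9, 34, 9, 72], [39, 9, 33, 9]), ([8, 66, 8, 64], [75, 8, 69, 8])] ++ ([([8, 42, 8, 36], [77, 8, 45, 8])]))))))))))))))))))))))))))))))))))))))))))
theorem rel : ∀ q ∈ PP, eqO q = true := by
  simp only [PP, List.forall_mem_append]
  exact ⟨allL_true rel0, allL_true rel1, allL_true rel2, allL_true rel3, allL_true rel4, allL_true rel5, allL_true rel6, allL_true rel7, allL_true rel8, allL_true rel9, allL_true rel10, allL_true rel11, allL_true rel12, allL_true rel13, allL_true rel14, allL_true rel15, allL_true rel16, allL_true rel17, allL_true rel18, allL_true rel19, allL_true rel20, allL_true rel21, allL_true rel22, allL_true rel23, allL_true rel24, allL_true rel25, allL_true rel26, allL_true rel27, allL_true rel28, allL_true rel29, allL_true rel30, allL_true rel31, allL_true rel32, allL_true rel33, allL_true rel34, allL_true rel35, allL_true rel36, allL_true rel37, allL_true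 rel38, allL_true rel39, allL_true rel40, allL_true rel41⟩

open Cfsg.Spor

def lets : List (Ly.Gen × Bool) := [(.a, true), (.a, false), (.b, true), (.b, false), (.c, true), (.c, false), (.d, true), (.d, false), (.z, true), (.z, false), (.e, true), (.e, false), (.a1, true), (.a1, false), (.a2, true), (.a2, false), (.a3, true), (.a3, false), (.a4, true), (.a4, false), (.c1, true), (.c1, false), (.c2, true), (.c2, false), (.c3, true), (.c3, false), (.c4, true), (.c4, false), (.c5, true), (.c5, false), (.u, true), (.u, false), (.x23, true), (.x23, false), (.x24, true), (.x24, false), (.x25, true), (.x25, false), (.x29, true), (.x29, false), (.x47, true), (.x47, false), (.x96, true), (.x96, false), (.x129, true), (.x129, false), (.x162, true), (.x162, false), (.x163, true), (.x163, false), (.x164, true), (.x164, false), (.x165, true), (.x165, false), (.x166, true), (.x166, false), (.x167, true), (.x167, false), (.x168, true), (.x168, false), (.x169,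 true), (.x169, false), (.x364, true), (.x364, false), (.x365, true), (.x365, false), (.x366, true), (.x366, false), (.x367, true), (.x367, false), (.x368, true), (.x368, false), (.x369, true), (.x369, false), (.x370, true), (.x370, false), (.x371, true), (.x371, false)]
def gens : List Ly.Gen := [.a, .b, .c, .d, .z, .e, .a1, .a2, .a3, .a4, .c1, .c2, .c3, .c4, .c5, .u, .x23, .x24, .x25, .x29, .x47, .x96, .x129, .x162, .x163, .x164, .x165, .x166, .x167, .x168, .x169, .x364, .x365, .x366, .x367, .x368, .x369, .x370, .x371]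
def enc : Ly.Gen → ℕ
  | .a => 0
  | .b => 2
  | .c => 4
  | .d => 6
  | .z => 8
  | .e => 10
  | .a1 => 12
  | .a2 => 14
  | .a3 => 16
  | .a4 => 18
  | .c1 => 20
  | .c2 => 22
  | .c3 => 24
  | .c4 => 26
  | .c5 => 28
  | .u => 30
  | .x23 => 32
  | .x24 => 34
  | .x25 => 36
  | .x29 => 38
  | .x47 => 40
  | .x96 => 42
  | .x129 => 44
  | .x162 => 46
  | .x163 => 48
  | .x164 => 50
  | .x165 => 52
  | .x166 => 54
  | .x167 => 56
  | .x168 => 58
  | .x169 => 60
  | .x364 => 62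
  | .x365 => 64
  | .x366 => 66
  | .x367 => 68
  | .x368 => 70
  | .x369 => 72
  | .x370 => 74
  | .x371 => 76

theorem mem_gens (a : Ly.Gen) : a ∈ gens := by cases a <;> decide

theorem letsOK : LetsOK 0 78 lets gens enc Ly.edges Ly.extra := by decide +kernel

/-- the letters -/
noncomputable def g : ℕ → Ly := letOf lets PresentedGroup.of

theorem pres : Presents 0 78 (coxWords 0 gens enc Ly.edges Ly.extra) g := presents_cox mem_gens letsOK

theorem sub : subsetB (coxWords 0 gens enc Ly.edges Ly.extra)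
    (PP.map fun q => q.1 ++ (q.2.map (invC 0)).reverse) = true := by decide +kernel

theorem pair : allLt 39 (fun i => PP.contains ([2 * i, 2 * i + 1], [])) = true := by decide +kernel

theorem ent : ((nth 0 (nth [] M0 0) 1 : ℕ) : ZMod 5) ≠ 0 := by decide +kernel

/-- the representation of degree 111 -/
theorem exists_rep : ∃ φ : Ly →* GL (Fin 111) (ZMod 5), ∀ x, Units.coeHom _ (φ (g x)) = MN.letM 111 5 Ms x := by
  have hp : ∀ i < 39, MN.weqO 111 5 4 Ms [2 * i, 2 * i + 1] [] = true := fun i hi => by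
    have := rel _ (List.contains_iff_mem.1 (allLt_true pair i hi))
    rwa [eqO] at this
  have hu : ∀ i < 39, MN.letM 111 5 Ms (2 * i) * MN.letM 111 5 Ms (2 * i + 1) = 1 := fun i hi => by
    have := MN.weqO_spec shape bnd (hp i hi)
    rwa [MN.prodN_map, MN.prodN_map, List.map_cons, List.map_cons, List.map_nil, List.prod_cons,
      List.prod_cons, List.prod_nil, mul_one] at this
  have : ∀ x, ∃ a : GL (Fin 111) (ZMod 5), Units.coeHom _ a = MN.letM 111 5 Ms x := fun x => by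
    by_cases c : x < 78
    · have := hu (x / 2) (by omega)
      rcases Nat.mod_two_eq_zero_or_one x with e | e
      · rw [show 2 * (x / 2) = x by omega] at this
        exact ⟨⟨_, _, this, mul_eq_one_comm.1 this⟩, rfl⟩
      · rw [show 2 * (x / 2) + 1 = x by omega] at this
        exact ⟨⟨_, _, mul_eq_one_comm.1 this, this⟩, rfl⟩
    · exact ⟨1, by rw [MN.letM_ge (Ms := Ms) (not_lt.1 c), map_one]⟩
  choose m hm using this
  have ht : ∀ x, 78 ≤ x → m x = 1 := fun x hx =>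
    Units.val_injective ((hm x).trans (MN.letM_ge (Ms := Ms) hx))
  have hI : Inv 0 m := fun x => by
    by_cases c : x < 78
    · have := MN.weqO_ev shape bnd Units.val_injective hm (hp (x / 2) (by omega))
      simp only [ev_cons, ev_nil, mul_one] at this
      rw [inv_of_ge (Nat.zero_le x), Nat.sub_zero, Nat.zero_add]
      rcases Nat.mod_two_eq_zero_or_one x with e | e
      · rw [Nat.xor_one_of_even (Nat.even_iff.2 e)]
        rw [show 2 * (x / 2) = x by omega] at this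
        exact eq_inv_of_mul_eq_one_right this
      · rw [Nat.xor_one_of_odd (Nat.odd_iff.2 e)]
        rw [show 2 * (x / 2) + 1 = x by omega, show 2 * (x / 2) = x - 1 by omega] at this
        exact eq_inv_of_mul_eq_one_left this
    · rw [ht x (not_lt.1 c), ht _ (inv_ge (by decide) (by decide) (not_lt.1 c)), inv_one]
  have hv : ∀ v : List ℕ, ev m (v.map (invC 0)).reverse = (ev m v)⁻¹ := fun v => by
    induction v with
    | nil => simp
    | cons x v ih => simp [ih, invC_eq, hI x]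
  obtain ⟨φ, hφ⟩ := pres.lift _ m hI ht fun r hr => by
    obtain ⟨q, a, rfl⟩ := List.mem_map.1 (subsetB_sound sub r hr)
    rw [ev_append, hv, MN.weqO_ev shape bnd Units.val_injective hm (by have := rel q a; rwa [eqO] at this), mul_inv_cancel]
  exact ⟨φ, fun x => by rw [hφ, hm]⟩

/-- the presented group is not trivial -/
theorem a_ne : (PresentedGroup.of Ly.Gen.a : Ly) ≠ 1 := fun e => by
  obtain ⟨φ, h⟩ := exists_rep
  have := h 0
  rw [show g 0 = 1 from e, map_one, map_one] at this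
  exact ent ((congrFun (congrFun this 0) 1).symm.trans (by simp))

end Cfsg.Agent.H27.Ly111
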