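import Cfsg.Agent.H27.MN

/-! The packed word check with a base that is not a power of two. -/

set_option autoImplicit false

namespace Cfsg.Agent.H27.MN

open H17 Matrix

variable {n : ℕ}

/-- the two words give the same matrix modulo `p` -/
noncomputable def weqO (n p c : ℕ) (Ms : List (List (List ℕ))) (u v : List ℕ) : Bool :=
  forceS (Nat.add (Nat.pow (Nat.succ (Nat.mul n c)) (Nat.add (Nat.sub u.length v.length) v.length)) 2) fun B =>
    band (band (Nat.blt (Nat.pow (Nat.mul n c) u.length) B) (Nat.blt (Nat.pow (Nat.mul n c) v.length) B)) <|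
    strict (pows n B) fun P => arQ.appW n Ms u P fun r => arQ.appW n Ms v P fun s =>
      allLt n fun i => chk B p n (nth 0 r i) (nth 0 s i)

theorem weqO_spec {p c : ℕ} {Ms : List (List (List ℕ))} (hs : Ar.shapeB n Ms = true)
    (hb : bndB c Ms = true) {u v : List ℕ} (h : weqO n p c Ms u v = true) :
    (prodN n Ms u).map (Nat.cast : ℕ → ZMod p) = (prodN n Ms v).map Nat.cast := by
  rw [weqO, forceS_eq, band_true, band_true, strict_eq] at h
  generalize Nat.add (Nat.pow (Nat.succ (Nat.mul n c)) _) 2 = B at h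
  obtain ⟨⟨b1, b2⟩, h⟩ := h
  have hv : (pows n B).length ≤ n := by simp [pows]
  obtain ⟨r, -, a2, a3⟩ := appW_spec hs hv u fun r => arQ.appW n Ms v (pows n B) fun s =>
    allLt n fun i => chk B p n (nth 0 r i) (nth 0 s i)
  obtain ⟨s, -, a4, a5⟩ := appW_spec hs hv v fun s => allLt n fun i => chk B p n (nth 0 r i) (nth 0 s i)
  rw [a3, a5] at h
  ext i j
  have key : ∀ (X : Matrix (Fin n) (Fin n) ℕ), (X *ᵥ fun i : Fin n => nth 0 (pows n B) i) i =
      ∑ k ∈ Finset.range n, (if c : k < n then X i ⟨k, c⟩ else 0) * B ^ k := fun X => by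
    refine Eq.trans ?_ (Fin.sum_univ_eq_sum_range
      (fun k : ℕ => ((if c : k < n then X i ⟨k, c⟩ else 0) * B ^ k : ℕ)) n)
    rw [mulVec, dotProduct]
    refine Finset.sum_congr rfl fun k _ => ?_
    rw [dif_pos k.2, pows, nth_map_range _ _ k.2]
    rfl
  have lt : ∀ w : List ℕ, Nat.blt (Nat.pow (Nat.mul n c) w.length) B = true → ∀ k,
      (if c : k < n then prodN n Ms w i ⟨k, c⟩ else 0) < B := fun w hw k => by
    have hw' : (n * c) ^ w.length < B := by simpa using hw
    split_ifs
    · exact (prodN_le hb w _ _).trans_lt hw'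
    · omega
  have := allLt_true h i i.2
  rw [congrFun a2 i, congrFun a4 i, key, key] at this
  have := chk_spec n _ _ (lt u b1) (lt v b2) this j j.2
  rw [dif_pos j.2, dif_pos j.2] at this
  exact (ZMod.natCast_eq_natCast_iff' _ _ p).2 this

theorem weqO_ev {p c : ℕ} {Ms : List (List (List ℕ))} (hs : Ar.shapeB n Ms = true)
    (hb : bndB c Ms = true) {Γ : Type} [Group Γ] {τ : Γ →* Matrix (Fin n) (Fin n) (ZMod p)}
    (hτ : Function.Injective τ) {m : ℕ → Γ} (hm : ∀ x, τ (m x) = letM n p Ms x) {u v : List ℕ}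
    (h : weqO n p c Ms u v = true) : ev m u = ev m v := by
  have key : ∀ w : List ℕ, τ (ev m w) = (w.map (letM n p Ms)).prod := fun w => by
    rw [ev, map_list_prod, List.map_map, show τ ∘ m = letM n p Ms from funext hm]
  exact hτ (by rw [key, key, ← prodN_map, ← prodN_map, weqO_spec hs hb h])

/-- letters with a right inverse given by a word are units -/
theorem exists_unitsO {p c : ℕ} {Ms : List (List (List ℕ))} (hs : Ar.shapeB n Ms = true)
    (hb : bndB c Ms = true) (h : ∀ x < Ms.length, ∃ u, weqO n p c Ms (x :: u) [] = true) :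
    ∃ m : ℕ → GL (Fin n) (ZMod p), ∀ x, Units.coeHom _ (m x) = letM n p Ms x := by
  have : ∀ x, ∃ a : GL (Fin n) (ZMod p), Units.coeHom _ a = letM n p Ms x := fun x => by
    by_cases c : x < Ms.length
    · obtain ⟨u, hu⟩ := h x c
      have := weqO_spec hs hb hu
      rw [prodN_map, prodN_map, List.map_cons, List.prod_cons, List.map_nil, List.prod_nil] at this
      exact ⟨⟨_, _, this, mul_eq_one_comm.1 this⟩, rfl⟩
    · exact ⟨1, by rw [letM_ge (not_lt.1 c), map_one]⟩
  exact ⟨fun x => (this x).choose, fun x => (this x).choose_spec⟩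

end Cfsg.Agent.H27.MN
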