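import Cfsg.Agent.H27.LyD
import Cfsg.Agent.H27.MO

/-! The check of one relation between the matrices of degree 111. -/

set_option autoImplicit false

namespace Cfsg.Agent.H27.Ly111

/-- the two words give the same matrix -/
noncomputable def eqO (q : List ℕ × List ℕ) : Bool := MN.weqO 111 5 4 Ms q.1 q.2

end Cfsg.Agent.H27.Ly111
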