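import Cfsg.Agent.H17.MatU

/-! Words in matrices over a prime field, evaluated on one packed vector of natural numbers. -/

set_option autoImplicit false

namespace Cfsg.Agent.H27.MN

open H17 Matrix

/-- natural numbers inside the rationals -/
noncomputable def arQ : Ar ℚ where
  dec := Nat.cast
  add := Nat.add
  mul := Nat.mul
  nrm a := a
  inv a := a
  dec_add := Nat.cast_add
  dec_mul := Nat.cast_mul
  dec_nrm _ := rfl
  dec_zero := Nat.cast_zero
  dec_one := Nat.cast_one
  inj _ _ h := Nat.cast_injective h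

variable (n : ℕ)

/-- the matrix of natural numbers -/
noncomputable def matN (M : List (List ℕ)) : Matrix (Fin n) (Fin n) ℕ := of fun i j => nth 0 (nth [] M i) j

/-- the product along a word -/
noncomputable def prodN (Ms : List (List (List ℕ))) (u : List ℕ) : Matrix (Fin n) (Fin n) ℕ :=
  (u.map fun x => matN n (nth (idM n) Ms x)).prod

variable {n}

theorem appW_spec {Ms : List (List (List ℕ))} (hs : Ar.shapeB n Ms = true) {β : Type} {v : List ℕ}
    (hv : v.length ≤ n) : ∀ (u : List ℕ) (k : List ℕ → β), ∃ w : List ℕ, w.length ≤ n ∧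
      (fun i : Fin n => nth 0 w i) = prodN n Ms u *ᵥ (fun i : Fin n => nth 0 v i) ∧ arQ.appW n Ms u v k = k w
  | [], k => ⟨v, hv, by simp [prodN], rfl⟩
  | x :: u, k => by
    obtain ⟨w, h1, h2, h3⟩ := appW_spec hs hv u fun w => arQ.mvK (nth (idM n) Ms x) w k
    refine ⟨arQ.mv (nth (idM n) Ms x) w, by simpa [Ar.mv] using Ar.shape_nth hs x, ?_,
      h3.trans (arQ.mvK_eq _ _ _)⟩
    rw [prodN, List.map_cons, List.prod_cons, ← mulVec_mulVec, ← prodN, ← h2]
    funext i
    apply Nat.cast_injective (R := ℚ)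
    have := congrFun (arQ.vec_mv (Equiv.refl (Fin n)) (nth (idM n) Ms x) h1) i
    refine this.trans ?_
    simp only [mulVec, dotProduct, Nat.cast_sum, Nat.cast_mul]
    rfl

/-- all entries are at most `c` -/
noncomputable def bndB (c : ℕ) (Ms : List (List (List ℕ))) : Bool :=
  band (Nat.ble 1 c) (allL Ms fun M => allL M fun r => allL r fun a => Nat.ble a c)

theorem matN_le {c : ℕ} {Ms : List (List (List ℕ))} (h : bndB c Ms = true) (x : ℕ) (i j : Fin n) :
    matN n (nth (idM n) Ms x) i j ≤ c := by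
  obtain ⟨h1, h2⟩ := band_true.1 h
  refine nth_prop (P := fun M => matN n M i j ≤ c) ?_ (fun M hM => ?_) x
  · have := congrFun (congrFun (arQ.mat_idM (Equiv.refl (Fin n))) i) j
    have e : ((matN n (idM n) i j : ℕ) : ℚ) = (1 : Matrix (Fin n) (Fin n) ℚ) i j := this
    refine le_trans ?_ (ble_true h1)
    rw [← Nat.cast_le (α := ℚ), e, one_apply]
    split_ifs <;> simp
  · exact nth_prop (P := fun r => nth 0 r j ≤ c) (by simp [nth_nil])
      (fun r hr => nth_prop (P := fun a => a ≤ c) (Nat.zero_le _)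
        (fun a ha => ble_true (allL_true (allL_true (allL_true h2 M hM) r hr) a ha)) j) i

theorem prodN_le {c : ℕ} {Ms : List (List (List ℕ))} (h : bndB c Ms = true) :
    ∀ (u : List ℕ) (i j : Fin n), prodN n Ms u i j ≤ (n * c) ^ u.length
  | [], i, j => by
    simp only [prodN, List.map_nil, List.prod_nil, one_apply, List.length_nil, pow_zero]
    split_ifs <;> simp
  | x :: u, i, j => by
    rw [prodN, List.map_cons, List.prod_cons, ← prodN, mul_apply, List.length_cons, pow_succ']
    refine (Finset.sum_le_card_nsmul _ _ (c * (n * c) ^ u.length) fun k _ =>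
      Nat.mul_le_mul (matN_le h x i k) (prodN_le h u k j)).trans ?_
    simp [mul_assoc]

/-- the digits agree modulo `p` -/
noncomputable def chk (B p m : ℕ) : ℕ → ℕ → Bool :=
  Nat.rec (motive := fun _ => ℕ → ℕ → Bool) (fun _ _ => true)
    (fun _ ih r s => band (Nat.beq (Nat.mod (Nat.mod r B) p) (Nat.mod (Nat.mod s B) p))
      (forceS (Nat.div r B) fun r' => forceS (Nat.div s B) fun s' => ih r' s')) m

theorem chk_spec {B p : ℕ} : ∀ (m : ℕ) (f g : ℕ → ℕ), (∀ k, f k < B) → (∀ k, g k < B) →
    chk B p m (∑ k ∈ Finset.range m, f k * B ^ k) (∑ k ∈ Finset.range m, g k * B ^ k) = true →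
    ∀ k < m, f k % p = g k % p
  | 0, _, _, _, _, _ => fun _ h => absurd h (by omega)
  | m + 1, f, g, hf, hg, h => by
    have key : ∀ f : ℕ → ℕ, (∀ k, f k < B) → (∑ k ∈ Finset.range (m + 1), f k * B ^ k) % B = f 0 ∧
        (∑ k ∈ Finset.range (m + 1), f k * B ^ k) / B = ∑ k ∈ Finset.range m, f (k + 1) * B ^ k := fun f hf => by
      have e : ∑ k ∈ Finset.range (m + 1), f k * B ^ k =
          f 0 + B * ∑ k ∈ Finset.range m, f (k + 1) * B ^ k := by
        rw [Finset.sum_range_succ', Finset.mul_sum, add_comm, pow_zero, mul_one]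
        exact congrArg _ (Finset.sum_congr rfl fun k _ => by ring)
      rw [e, Nat.add_mul_mod_self_left, Nat.add_mul_div_left _ _ (Nat.zero_lt_of_lt (hf 0)),
        Nat.mod_eq_of_lt (hf 0), Nat.div_eq_of_lt (hf 0), zero_add]
      exact ⟨rfl, rfl⟩
    change band (Nat.beq ((_ % B) % p) ((_ % B) % p)) (forceS (_ / B) fun r' => forceS (_ / B) fun s' =>
      chk B p m r' s') = true at h
    rw [band_true, forceS_eq, forceS_eq, (key f hf).1, (key g hg).1, (key f hf).2, (key g hg).2] at h
    intro k hk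
    cases k with
    | zero => exact beq_true h.1
    | succ k => exact chk_spec m _ _ (fun k => hf _) (fun k => hg _) h.2 k (by omega)

/-- the powers of `B` -/
noncomputable def pows (n B : ℕ) : List ℕ := (List.range n).map fun k => Nat.pow B k

/-- the two words give the same matrix modulo `p` -/
noncomputable def weqN (n p c : ℕ) (Ms : List (List (List ℕ))) (u v : List ℕ) : Bool :=
  forceS (Nat.pow 2 (Nat.succ (Nat.log2 (Nat.pow (Nat.mul n c) (Nat.add u.length v.length))))) fun B =>
    band (band (Nat.blt (Nat.pow (Nat.mul n c) u.length) B) (Nat.blt (Nat.pow (Nat.mul n c) v.length) B)) <|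
    strict (pows n B) fun P => arQ.appW n Ms u P fun r => arQ.appW n Ms v P fun s =>
      allLt n fun i => chk B p n (nth 0 r i) (nth 0 s i)

theorem weqN_spec {p c : ℕ} {Ms : List (List (List ℕ))} (hs : Ar.shapeB n Ms = true)
    (hb : bndB c Ms = true) {u v : List ℕ} (h : weqN n p c Ms u v = true) :
    (prodN n Ms u).map (Nat.cast : ℕ → ZMod p) = (prodN n Ms v).map Nat.cast := by
  rw [weqN, forceS_eq, band_true, band_true, strict_eq] at h
  generalize Nat.pow 2 _ = B at h
  obtain ⟨⟨b1, b2⟩, h⟩ := h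
  have hv : (pows n B).length ≤ n := by simp [pows]
  obtain ⟨r, -, a2, a3⟩ := appW_spec hs hv u fun r => arQ.appW n Ms v (pows n B) fun s =>
    allLt n fun i => chk B p n (nth 0 r i) (nth 0 s i)
  obtain ⟨s, -, a4, a5⟩ := appW_spec hs hv v fun s => allLt n fun i => chk B p n (nth 0 r i) (nth 0 s i)
  rw [a3, a5] at h
  ext i j
  have key : ∀ (X : Matrix (Fin n) (Fin n) ℕ), (X *ᵥ fun i : Fin n => nth 0 (pows n B) i) i =
      ∑ k ∈ Finset.range n, (if c : k < n then X i ⟨k, c⟩ else 0) * B ^ k := fun X => by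
    refine Eq.trans ?_ (Fin.sum_univ_eq_sum_range
      (fun k : ℕ => ((if c : k < n then X i ⟨k, c⟩ else 0) * B ^ k : ℕ)) n)
    rw [mulVec, dotProduct]
    refine Finset.sum_congr rfl fun k _ => ?_
    rw [dif_pos k.2, pows, nth_map_range _ _ k.2]
    rfl
  have lt : ∀ w : List ℕ, Nat.blt (Nat.pow (Nat.mul n c) w.length) B = true → ∀ k,
      (if c : k < n then prodN n Ms w i ⟨k, c⟩ else 0) < B := fun w hw k => by
    have hw' : (n * c) ^ w.length < B := by simpa using hw
    split_ifs
    · exact (prodN_le hb w _ _).trans_lt hw'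
    · omega
  have := allLt_true h i i.2
  rw [congrFun a2 i, congrFun a4 i, key, key] at this
  have := chk_spec n _ _ (lt u b1) (lt v b2) this j j.2
  rw [dif_pos j.2, dif_pos j.2] at this
  exact (ZMod.natCast_eq_natCast_iff' _ _ p).2 this

/-- the matrix of a letter -/
noncomputable def letM (n p : ℕ) (Ms : List (List (List ℕ))) (x : ℕ) : Matrix (Fin n) (Fin n) (ZMod p) :=
  (matN n (nth (idM n) Ms x)).map Nat.cast

theorem prodN_map {p : ℕ} (Ms : List (List (List ℕ))) : ∀ u : List ℕ,
    (prodN n Ms u).map (Nat.cast : ℕ → ZMod p) = (u.map (letM n p Ms)).prod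
  | [] => by simp [prodN]
  | x :: u => by
    rw [prodN, List.map_cons, List.prod_cons, ← prodN, List.map_cons, List.prod_cons, ← prodN_map Ms u]
    exact Matrix.map_mul (f := Nat.castRingHom (ZMod p))

theorem weqN_ev {p c : ℕ} {Ms : List (List (List ℕ))} (hs : Ar.shapeB n Ms = true)
    (hb : bndB c Ms = true) {Γ : Type} [Group Γ] {τ : Γ →* Matrix (Fin n) (Fin n) (ZMod p)}
    (hτ : Function.Injective τ) {m : ℕ → Γ} (hm : ∀ x, τ (m x) = letM n p Ms x) {u v : List ℕ}
    (h : weqN n p c Ms u v = true) : ev m u = ev m v := by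
  have key : ∀ w : List ℕ, τ (ev m w) = (w.map (letM n p Ms)).prod := fun w => by
    rw [ev, map_list_prod, List.map_map, show τ ∘ m = letM n p Ms from funext hm]
  exact hτ (by rw [key, key, ← prodN_map, ← prodN_map, weqN_spec hs hb h])

theorem letM_ge {p : ℕ} {Ms : List (List (List ℕ))} {x : ℕ} (hx : Ms.length ≤ x) : letM n p Ms x = 1 := by
  rw [letM, nth_of_ge _ hx]
  ext i j
  have e : ((matN n (idM n) i j : ℕ) : ℚ) = (1 : Matrix (Fin n) (Fin n) ℚ) i j :=
    congrFun (congrFun (arQ.mat_idM (Equiv.refl (Fin n))) i) j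
  rw [map_apply, one_apply] at *
  split_ifs at e ⊢ <;> simp_all

/-- letters with a right inverse given by a word are units -/
theorem exists_units {p c : ℕ} {Ms : List (List (List ℕ))} (hs : Ar.shapeB n Ms = true)
    (hb : bndB c Ms = true) (h : ∀ x < Ms.length, ∃ u, weqN n p c Ms (x :: u) [] = true) :
    ∃ m : ℕ → GL (Fin n) (ZMod p), ∀ x, Units.coeHom _ (m x) = letM n p Ms x := by
  have : ∀ x, ∃ a : GL (Fin n) (ZMod p), Units.coeHom _ a = letM n p Ms x := fun x => by
    by_cases c : x < Ms.length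
    · obtain ⟨u, hu⟩ := h x c
      have := weqN_spec hs hb hu
      rw [prodN_map, prodN_map, List.map_cons, List.prod_cons, List.map_nil, List.prod_nil] at this
      exact ⟨⟨_, _, this, mul_eq_one_comm.1 this⟩, rfl⟩
    · exact ⟨1, by rw [letM_ge (not_lt.1 c), map_one]⟩
  exact ⟨fun x => (this x).choose, fun x => (this x).choose_spec⟩

end Cfsg.Agent.H27.MN
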